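import Cfsg.Agent.Chars.Apps.PPrimeDegree
import Cfsg.Agent.Chars.Induced.Ito
import Cfsg.Agent.Chars.Basic.Kernel

/-!
Characters of odd degree of a group and of a subgroup of odd index.
-/

set_option autoImplicit false
set_option linter.style.haveILetI false
set_option linter.unusedSectionVars false

noncomputable section

open scoped commutatorElement

namespace CfsgLib.Chars.OddNormalizer68

open Cfsg CfsgLib.Chars CfsgLib.Chars.Induced

universe u

variable {G : Type u} [Group G] [Fintype G]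

/-- Every character of odd degree restricts irreducibly to `H`, and is determined by the restriction. -/
structure RestrictHyp (H : Subgroup G) : Prop where
  irr : ∀ χ : IrrCharacter G, ¬ 2 ∣ charDegree (χ : G → ℂ) →
    IsIrrCharacter H (fun h : H => (χ : G → ℂ) h)
  inj : ∀ χ χ' : IrrCharacter G, ¬ 2 ∣ charDegree (χ : G → ℂ) →
    ¬ 2 ∣ charDegree (χ' : G → ℂ) → (∀ h : H, (χ : G → ℂ) h = (χ' : G → ℂ) h) → χ = χ'

/-- The common kernel of the characters of odd degree. -/
def oddKer (G : Type u) [Group G] : Subgroup G :=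
  ⨅ χ : {χ : IrrCharacter G // ¬ 2 ∣ charDegree (χ : G → ℂ)}, charKer (χ.1 : G → ℂ)

omit [Fintype G] in
theorem mem_oddKer [Finite G] {x : G} : x ∈ oddKer G ↔
    ∀ χ : IrrCharacter G, ¬ 2 ∣ charDegree (χ : G → ℂ) → (χ : G → ℂ) x = (χ : G → ℂ) 1 := by
  simp only [oddKer, Subgroup.mem_iInf, Subtype.forall]
  exact forall_congr' fun f => forall_congr' fun hf => forall_congr' fun _ => mem_charKer_iff (isCharacter_coe (⟨f, hf⟩ : IrrCharacter G))

omit [Fintype G] in
theorem oddKer_normal : (oddKer G).Normal :=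
  Subgroup.normal_iInf_normal fun χ => charKer_normal (isClassFunction_coe χ.1)

theorem charDegree_restrict (H : Subgroup G) [Fintype H] (χ : IrrCharacter G) (θ : IrrCharacter H)
    (h : ∀ y : H, (χ : G → ℂ) y = (θ : H → ℂ) y) :
    charDegree (θ : H → ℂ) = charDegree (χ : G → ℂ) :=
  charDegree_eq_of_map_one (by rw [← h 1, coe_charDegree]; rfl)

/-- Some distinct constituents of a restriction have degrees adding up to at most the degree. -/
theorem sum_constituents_le (H : Subgroup G) [Fintype H] (χ : IrrCharacter G)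
    (t : Finset (IrrCharacter H))
    (ht : ∀ θ ∈ t, mult (fun h : H => (χ : G → ℂ) h) θ ≠ 0) :
    ∑ θ ∈ t, charDegree (θ : H → ℂ) ≤ charDegree (χ : G → ℂ) := by
  classical
  obtain ⟨s, hmem, hs⟩ := exists_eq_sum_mult (isCharacter_restrict (isCharacter_coe χ) H)
  have hsum : charDegree (χ : G → ℂ) =
      ∑ θ ∈ s, mult (fun h : H => (χ : G → ℂ) h) θ * charDegree (θ : H → ℂ) := by
    apply Nat.cast_injective (R := ℂ)
    rw [coe_charDegree χ, Nat.cast_sum]
    have h1 := congrFun hs 1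
    simp only [OneMemClass.coe_one, Finset.sum_apply, Pi.smul_apply, smul_eq_mul] at h1
    rw [h1]
    exact Finset.sum_congr rfl fun θ _ => by rw [Nat.cast_mul, coe_charDegree θ]
  rw [hsum]
  calc ∑ θ ∈ t, charDegree (θ : H → ℂ)
      ≤ ∑ θ ∈ t, mult (fun h : H => (χ : G → ℂ) h) θ * charDegree (θ : H → ℂ) :=
        Finset.sum_le_sum fun θ hθ => Nat.le_mul_of_pos_left _ (Nat.pos_of_ne_zero (ht θ hθ))
    _ ≤ _ := Finset.sum_le_sum_of_subset fun θ hθ => (hmem θ).2 (ht θ hθ)

/-- An irreducible constituent of the full degree is the whole restriction. -/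
theorem restrict_eq_of_degree (H : Subgroup G) [Fintype H] (χ : IrrCharacter G) (θ : IrrCharacter H)
    (hm : mult (fun h : H => (χ : G → ℂ) h) θ ≠ 0)
    (hd : charDegree (θ : H → ℂ) = charDegree (χ : G → ℂ)) :
    (fun h : H => (χ : G → ℂ) h) = (θ : H → ℂ) := by
  classical
  obtain ⟨s, hmem, hs⟩ := exists_eq_sum_mult (isCharacter_restrict (isCharacter_coe χ) H)
  have hθs : θ ∈ s := (hmem θ).2 hm
  have hsum : charDegree (χ : G → ℂ) =
      ∑ η ∈ s, mult (fun h : H => (χ : G → ℂ) h) η * charDegree (η : H → ℂ) := by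
    apply Nat.cast_injective (R := ℂ)
    rw [coe_charDegree χ, Nat.cast_sum]
    have h1 := congrFun hs 1
    simp only [OneMemClass.coe_one, Finset.sum_apply, Pi.smul_apply, smul_eq_mul] at h1
    rw [h1]
    exact Finset.sum_congr rfl fun η _ => by rw [Nat.cast_mul, coe_charDegree η]
  rw [← Finset.add_sum_erase _ _ hθs] at hsum
  have hpos : ∀ η : IrrCharacter H, 0 < charDegree (η : H → ℂ) := fun η => by
    refine Nat.pos_of_ne_zero fun h0 => map_one_ne_zero η ?_
    rw [← coe_charDegree η, h0, Nat.cast_zero]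
  have hm1 : mult (fun h : H => (χ : G → ℂ) h) θ = 1 := by
    have hle : mult (fun h : H => (χ : G → ℂ) h) θ * charDegree (θ : H → ℂ) ≤
        1 * charDegree (θ : H → ℂ) := by
      rw [one_mul]; omega
    have := Nat.le_of_mul_le_mul_right hle (hpos θ)
    omega
  rw [hm1, one_mul] at hsum
  have hs1 : s = {θ} := by
    refine Finset.eq_singleton_iff_unique_mem.2 ⟨hθs, fun η hη => by_contra fun hne => ?_⟩
    have h0 : ∑ η ∈ s.erase θ, mult (fun h : H => (χ : G → ℂ) h) η * charDegree (η : H → ℂ) = 0 := by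
      omega
    have := Finset.sum_eq_zero_iff.1 h0 η (Finset.mem_erase.2 ⟨hne, hη⟩)
    exact Nat.mul_ne_zero ((hmem η).1 hη) (hpos η).ne' this
  rw [hs, hs1, Finset.sum_singleton, hm1, Nat.cast_one, one_smul]

/-- For a subgroup of odd index, the squares of the odd degrees of the subgroup are bounded by those
of the group; equality makes restriction a bijection on these characters. -/
theorem sum_odd_sq (H : Subgroup G) [Fintype H] (hH : ¬ 2 ∣ H.index) :
    ∑ᶠ θ : {θ : IrrCharacter H // ¬ 2 ∣ charDegree (θ : H → ℂ)}, charDegree (θ.1 : H → ℂ) ^ 2 ≤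
      ∑ᶠ χ : {χ : IrrCharacter G // ¬ 2 ∣ charDegree (χ : G → ℂ)}, charDegree (χ.1 : G → ℂ) ^ 2 ∧
    (∑ᶠ θ : {θ : IrrCharacter H // ¬ 2 ∣ charDegree (θ : H → ℂ)}, charDegree (θ.1 : H → ℂ) ^ 2 =
      ∑ᶠ χ : {χ : IrrCharacter G // ¬ 2 ∣ charDegree (χ : G → ℂ)}, charDegree (χ.1 : G → ℂ) ^ 2 →
      RestrictHyp H) := by
  classical
  haveI : Fact (Nat.Prime 2) := ⟨Nat.prime_two⟩
  rw [finsum_eq_sum_of_fintype, finsum_eq_sum_of_fintype]
  choose f hf2 hfm using fun θ : {θ : IrrCharacter H // ¬ 2 ∣ charDegree (θ : H → ℂ)} =>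
    Apps.exists_not_dvd_over H hH θ.1 θ.2
  let g : {θ : IrrCharacter H // ¬ 2 ∣ charDegree (θ : H → ℂ)} →
      {χ : IrrCharacter G // ¬ 2 ∣ charDegree (χ : G → ℂ)} := fun θ => ⟨f θ, hf2 θ⟩
  have hle : ∀ χ : {χ : IrrCharacter G // ¬ 2 ∣ charDegree (χ : G → ℂ)},
      ∑ θ ∈ Finset.univ.filter (fun θ => g θ = χ), charDegree (θ.1 : H → ℂ) ≤
        charDegree (χ.1 : G → ℂ) := by
    intro χ
    have h := sum_constituents_le H χ.1
      ((Finset.univ.filter (fun θ => g θ = χ)).map ⟨Subtype.val, Subtype.val_injective⟩) (by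
        intro θ hθ
        obtain ⟨θ', hθ', rfl⟩ := Finset.mem_map.1 hθ
        rw [← (Finset.mem_filter.1 hθ').2]
        exact hfm θ')
    rwa [Finset.sum_map] at h
  have hsq : ∀ χ : {χ : IrrCharacter G // ¬ 2 ∣ charDegree (χ : G → ℂ)},
      ∑ θ ∈ Finset.univ.filter (fun θ => g θ = χ), charDegree (θ.1 : H → ℂ) ^ 2 ≤
        charDegree (χ.1 : G → ℂ) ^ 2 := fun χ =>
    (Finset.sum_sq_le_sq_sum_of_nonneg fun _ _ => Nat.zero_le _).trans (Nat.pow_le_pow_left (hle χ) 2)
  rw [← Finset.sum_fiberwise Finset.univ g fun θ => charDegree (θ.1 : H → ℂ) ^ 2]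
  refine ⟨Finset.sum_le_sum fun χ _ => hsq χ, fun he => ?_⟩
  have heq := (Finset.sum_eq_sum_iff_of_le fun χ _ => hsq χ).1 he
  have hpos : ∀ χ : IrrCharacter G, 0 < charDegree (χ : G → ℂ) := fun χ =>
    Nat.pos_of_ne_zero fun h0 => map_one_ne_zero χ (by rw [← coe_charDegree χ, h0, Nat.cast_zero])
  have hone : ∀ χ : {χ : IrrCharacter G // ¬ 2 ∣ charDegree (χ : G → ℂ)}, ∃ θ,
      Finset.univ.filter (fun θ => g θ = χ) = {θ} ∧
      charDegree (θ.1 : H → ℂ) = charDegree (χ.1 : G → ℂ) := by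
    intro χ
    have h1 := heq χ (Finset.mem_univ _)
    set F := Finset.univ.filter (fun θ => g θ = χ)
    rcases F.eq_empty_or_nonempty with h0 | ⟨θ, hθ⟩
    · rw [h0, Finset.sum_empty] at h1
      exact absurd h1.symm (pow_ne_zero 2 (hpos χ.1).ne')
    refine ⟨θ, ?_⟩
    have hθpos : 0 < charDegree (θ.1 : H → ℂ) :=
      Nat.pos_of_ne_zero fun h0 => θ.2 (h0 ▸ dvd_zero 2)
    have hF := hle χ
    rw [← Finset.add_sum_erase _ _ hθ] at hF h1
    set r := ∑ η ∈ F.erase θ, charDegree (η.1 : H → ℂ)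
    have hr2 : ∑ η ∈ F.erase θ, charDegree (η.1 : H → ℂ) ^ 2 ≤ r ^ 2 :=
      Finset.sum_sq_le_sq_sum_of_nonneg fun _ _ => Nat.zero_le _
    have h2 := Nat.pow_le_pow_left hF 2
    have hr : r = 0 := by nlinarith
    refine ⟨Finset.eq_singleton_iff_unique_mem.2 ⟨hθ, fun η hη => by_contra fun hne => ?_⟩, ?_⟩
    · exact η.2 ((Finset.sum_eq_zero_iff.1 hr η (Finset.mem_erase.2 ⟨hne, hη⟩)) ▸ dvd_zero 2)
    · rw [hr, add_zero] at hF
      have hz : ∑ η ∈ F.erase θ, charDegree (η.1 : H → ℂ) ^ 2 = 0 := by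
        rw [hr] at hr2; simpa using hr2
      rw [hz, add_zero] at h1
      exact Nat.pow_left_injective two_ne_zero h1
  have hres : ∀ χ (h : ¬ 2 ∣ charDegree ((χ : IrrCharacter G) : G → ℂ)), ∃ θ, g θ = ⟨χ, h⟩ ∧
      (fun y : H => (χ : G → ℂ) y) = (θ.1 : H → ℂ) ∧ ∀ θ', g θ' = ⟨χ, h⟩ → θ' = θ := by
    intro χ h
    obtain ⟨θ, hθ, hd⟩ := hone ⟨χ, h⟩
    have hg : g θ = ⟨χ, h⟩ :=
      (Finset.mem_filter.1 (show θ ∈ Finset.univ.filter (fun θ => g θ = ⟨χ, h⟩) by rw [hθ]; exact Finset.mem_singleton_self θ)).2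
    refine ⟨θ, hg, restrict_eq_of_degree H χ θ.1 ?_ hd, fun θ' hθ' => ?_⟩
    · have := hfm θ
      rwa [show f θ = χ from congrArg Subtype.val hg] at this
    · exact Finset.mem_singleton.1 (hθ ▸ Finset.mem_filter.2 ⟨Finset.mem_univ _, hθ'⟩)
  refine ⟨fun χ h => ?_, fun χ χ' h h' he => ?_⟩
  · obtain ⟨θ, -, hθ, -⟩ := hres χ h
    rw [hθ]; exact θ.1.2
  · obtain ⟨θ, hg, hθ, -⟩ := hres χ h
    obtain ⟨θ', hg', hθ', -⟩ := hres χ' h'
    have : θ = θ' := Subtype.ext (Subtype.ext (hθ.symm.trans ((funext he).trans hθ')))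
    exact congrArg Subtype.val ((hg.symm.trans (this ▸ hg')))

/-- Every odd-degree character of the subgroup is a restriction. -/
theorem RestrictHyp.exists_restrict {H : Subgroup G} [Fintype H] (hyp : RestrictHyp H)
    (hH : ¬ 2 ∣ H.index) (θ : IrrCharacter H) (hθ : ¬ 2 ∣ charDegree (θ : H → ℂ)) :
    ∃ χ : IrrCharacter G, ¬ 2 ∣ charDegree (χ : G → ℂ) ∧
      ∀ h : H, (χ : G → ℂ) h = (θ : H → ℂ) h := by
  classical
  haveI : Fact (Nat.Prime 2) := ⟨Nat.prime_two⟩
  obtain ⟨χ, hχ, hm⟩ := Apps.exists_not_dvd_over H hH θ hθ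
  refine ⟨χ, hχ, fun h => ?_⟩
  rw [show (fun y : H => (χ : G → ℂ) y) = ((⟨_, hyp.irr χ hχ⟩ : IrrCharacter H) : H → ℂ) from rfl,
    mult_irr] at hm
  split_ifs at hm with he
  · exact congrFun (congrArg Subtype.val he) h
  · exact absurd rfl hm

/-- A character of a group with normal 2-subgroup has odd degree exactly when the derived
subgroup of the 2-subgroup lies in its kernel (for a Sylow subgroup). -/
theorem not_two_dvd_iff (P : Sylow 2 G) [(P : Subgroup G).Normal] (θ : IrrCharacter G) :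
    ¬ 2 ∣ charDegree (θ : G → ℂ) ↔
      (commutator (P : Subgroup G)).map (P : Subgroup G).subtype ≤ charKer (θ : G → ℂ) := by
  classical
  haveI : Fact (Nat.Prime 2) := ⟨Nat.prime_two⟩
  haveI := Fintype.ofFinite (P : Subgroup G)
  constructor
  · intro hθ
    have hres := isCharacter_restrict (isCharacter_coe θ) (P : Subgroup G)
    obtain ⟨l, hl⟩ := Apps.exists_linear_constituent P.isPGroup' hres
      (d := charDegree (θ : G → ℂ)) (by rw [coe_charDegree]; rfl) hθ
    rw [le_charKer_iff (isCharacter_coe θ)]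
    rintro _ ⟨x, hx, rfl⟩
    have hcl := clifford θ (linChar l) hl
    have hx1 := congrFun hcl x
    have h11 := congrFun hcl 1
    simp only [Pi.smul_apply, Finset.sum_apply, smul_eq_mul] at hx1 h11
    show (θ : G → ℂ) (x : G) = (θ : G → ℂ) 1
    refine hx1.trans (Eq.trans ?_ h11.symm)
    refine congrArg _ (Finset.sum_congr rfl fun η hη => ?_)
    obtain ⟨y, rfl⟩ := (Set.Finite.mem_toFinset _).1 hη
    have hlin : (conjIrr y (linChar l) : IrrCharacter (P : Subgroup G)).1 1 = 1 := by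
      rw [conjIrr_coe, conjFun_apply, linChar_apply]
      rw [show (⟨y⁻¹ * ((1 : (P : Subgroup G)) : G) * y, _⟩ : (P : Subgroup G)) = 1 from
        Subtype.ext (by simp), map_one, Units.val_one]
    exact map_eq_map_one_of_mem_charKer
      ((commutator_le_charKer_iff (conjIrr y (linChar l))).2 hlin hx)
  · intro h
    set D := (commutator (P : Subgroup G)).map (P : Subgroup G).subtype with hD
    haveI : D.Normal := by
      rw [hD]
      exact ConjAct.normal_of_characteristic_of_normal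
    obtain ⟨ψ, rfl⟩ := exists_inflate_eq D θ h
    rw [charDegree_inflate]
    set A := (P : Subgroup G).map (QuotientGroup.mk' D) with hA
    haveI : A.Normal := Subgroup.Normal.map inferInstance _ (QuotientGroup.mk'_surjective D)
    haveI : IsMulCommutative A := by
      refine ⟨⟨fun a b => Subtype.ext ?_⟩⟩
      obtain ⟨x, hx, hxa⟩ := a.2
      obtain ⟨y, hy, hyb⟩ := b.2
      show (a : G ⧸ D) * b = b * a
      rw [← hxa, ← hyb, ← map_mul, ← map_mul]
      refine QuotientGroup.eq.2 ?_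
      refine ⟨⁅(⟨y, hy⟩ : (P : Subgroup G))⁻¹, (⟨x, hx⟩ : (P : Subgroup G))⁻¹⁆,
        Subgroup.commutator_mem_commutator (Subgroup.mem_top _) (Subgroup.mem_top _), ?_⟩
      simp [commutatorElement_def, mul_assoc]
    intro h2
    have hd := h2.trans (ito A ψ)
    refine P.not_dvd_index (hd.trans ?_)
    exact Subgroup.index_map_dvd _ (QuotientGroup.mk'_surjective D)

end CfsgLib.Chars.OddNormalizer68
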