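import Cfsg.Agent.Chars.OddNormalizer68.Basic

/-!
If restriction to a subgroup of odd index determines the odd-degree characters, so it does for the
kernel of a linear character of odd order.
-/

set_option autoImplicit false
set_option linter.style.haveILetI false
set_option linter.unusedSectionVars false

noncomputable section

namespace CfsgLib.Chars.OddNormalizer68

open Cfsg CfsgLib.Chars CfsgLib.Chars.Induced
open scoped ComplexConjugate

universe u

variable {G : Type u} [Group G] [Fintype G]

/-- The inner product on the kernel of a homomorphism to the roots of unity. -/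
theorem classInner_kernel (M : Subgroup G) [Fintype M] (l : G →* ℂˣ)
    (hl : ∀ g, l g = 1 ↔ g ∈ M) {r : ℕ} (hlr : ∀ g, l g ^ r = 1) (hr : M.index = r) (φ ψ : G → ℂ) :
    classInner (fun m : M => φ m) (fun m : M => ψ m) =
      ∑ i ∈ Finset.range r, classInner (fun g => ((l ^ i) g : ℂ) * φ g) ψ := by
  classical
  simp only [classInner]
  rw [← Finset.mul_sum, Finset.sum_comm]
  have h1 : ∀ g : G, ∑ i ∈ Finset.range r, ((l ^ i) g : ℂ) * φ g * conj (ψ g) =
      if g ∈ M then (r : ℂ) * (φ g * conj (ψ g)) else 0 := by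
    intro g
    simp only [MonoidHom.pow_apply, Units.val_pow_eq_pow_val, mul_assoc]
    rw [← Finset.sum_mul]
    by_cases hg : g ∈ M
    · rw [if_pos hg, (hl g).2 hg]
      simp
    · rw [if_neg hg]
      have hne : ((l g : ℂˣ) : ℂ) ≠ 1 := fun h => hg ((hl g).1 (Units.ext (by simpa using h)))
      rw [geom_sum_eq hne, ← Units.val_pow_eq_pow_val, hlr g]
      simp
  rw [Finset.sum_congr rfl fun g _ => h1 g, ← Finset.sum_filter, ← Finset.mul_sum,
    Finset.sum_subtype (Finset.univ.filter fun g => g ∈ M) (p := fun g => g ∈ M) (fun g => by simp)]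
  have hM : (Nat.card G : ℂ) = (Nat.card M : ℂ) * r := by
    rw [← M.card_mul_index, hr]; push_cast; ring
  rw [hM]
  have hr0 : (r : ℂ) ≠ 0 := by
    rw [← hr]; exact Nat.cast_ne_zero.2 Subgroup.index_ne_zero_of_finite
  field_simp

/-- The inner product of two characters is a natural number. -/
theorem exists_nat_inner {χ ψ : G → ℂ} (hχ : IsCharacter G χ) (hψ : IsCharacter G ψ) :
    ∃ n : ℕ, classInner χ ψ = n := by
  classical
  obtain ⟨s, -, hs⟩ := exists_eq_sum_mult hχ
  refine ⟨∑ η ∈ s, mult χ η * mult ψ η, ?_⟩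
  conv_lhs => rw [hs, classInner_sum_left]
  push_cast
  refine Finset.sum_congr rfl fun η _ => ?_
  rw [classInner_smul_left, classInner_irr_left_eq_mult hψ]

theorem classInner_sum_right' {ι : Type*} (s : Finset ι) (φ : G → ℂ) (ψ : ι → G → ℂ) :
    classInner φ (∑ i ∈ s, ψ i) = ∑ i ∈ s, classInner φ (ψ i) := by
  rw [classInner_comm_conj, classInner_sum_left, map_sum]
  exact Finset.sum_congr rfl fun i _ => (classInner_comm_conj _ _).symm

theorem classInner_natCast_smul_right (n : ℕ) (φ ψ : G → ℂ) :
    classInner φ ((n : ℂ) • ψ) = (n : ℂ) * classInner φ ψ := by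
  rw [classInner_comm_conj, classInner_smul_left, map_mul, map_natCast, ← classInner_comm_conj]

variable (H : Subgroup G) [Fintype H] (M : Subgroup G) [Fintype M] [Fintype (H.subgroupOf M)]

theorem inner_transport [Fintype (M.subgroupOf H)] (φ ψ : G → ℂ) :
    classInner (fun x : H.subgroupOf M => φ ((x : M) : G)) (fun x : H.subgroupOf M => ψ ((x : M) : G)) =
      classInner (fun x : M.subgroupOf H => φ ((x : H) : G))
        (fun x : M.subgroupOf H => ψ ((x : H) : G)) := by
  let e : (H.subgroupOf M) ≃* (M.subgroupOf H) :=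
    { toFun := fun x => ⟨⟨((x : M) : G), x.2⟩, (x : M).2⟩
      invFun := fun x => ⟨⟨((x : H) : G), x.2⟩, (x : H).2⟩
      left_inv := fun _ => rfl
      right_inv := fun _ => rfl
      map_mul' := fun _ _ => rfl }
  exact classInner_comp_equiv e (fun x : M.subgroupOf H => φ ((x : H) : G))
    (fun x : M.subgroupOf H => ψ ((x : H) : G))

/-- Restriction from the kernel keeps the inner products of odd-degree characters. -/
theorem inner_eq (hyp : RestrictHyp H) (l : G →* ℂˣ) (hl : ∀ g, l g = 1 ↔ g ∈ M) {r : ℕ}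
    (hlr : ∀ g, l g ^ r = 1) (hr : M.index = r) (hrH : (M.subgroupOf H).index = r)
    (χ χ' : IrrCharacter G) (hχ : ¬ 2 ∣ charDegree (χ : G → ℂ))
    (hχ' : ¬ 2 ∣ charDegree (χ' : G → ℂ)) :
    classInner (fun m : M => (χ : G → ℂ) m) (fun m : M => (χ' : G → ℂ) m) =
      classInner (fun x : H.subgroupOf M => (χ : G → ℂ) ((x : M) : G))
        (fun x : H.subgroupOf M => (χ' : G → ℂ) ((x : M) : G)) := by
  classical
  rw [classInner_kernel M l hl hlr hr, inner_transport H M,
    classInner_kernel (M.subgroupOf H) (l.comp H.subtype) (fun h => by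
      rw [Subgroup.mem_subgroupOf]; exact hl h) (fun h => hlr h) hrH
      (fun h : H => (χ : G → ℂ) h) (fun h : H => (χ' : G → ℂ) h)]
  refine Finset.sum_congr rfl fun i _ => ?_
  set A : IrrCharacter G := ⟨_, isIrrCharacter_linear_mul χ.2 (l ^ i)⟩ with hA
  have hAodd : ¬ 2 ∣ charDegree (A : G → ℂ) := by
    rwa [charDegree_eq_of_map_one (χ := (A : G → ℂ)) (n := charDegree (χ : G → ℂ))
      (by rw [coe_charDegree χ]; simp [hA])]
  have e : (fun h : H => (((l.comp H.subtype) ^ i) h : ℂ) * (χ : G → ℂ) h) =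
      fun h : H => (A : G → ℂ) h := rfl
  rw [e]
  show classInner (A : G → ℂ) (χ' : G → ℂ) = _
  set B : IrrCharacter H := ⟨_, hyp.irr A hAodd⟩
  set B' : IrrCharacter H := ⟨_, hyp.irr χ' hχ'⟩
  show classInner (A : G → ℂ) (χ' : G → ℂ) = classInner (B : H → ℂ) (B' : H → ℂ)
  by_cases h : A = χ'
  · have hB : B = B' := Subtype.ext (funext fun y => congrFun (congrArg Subtype.val h) y)
    rw [h, hB, classInner_irr_self, classInner_irr_self]
  · have hB : B ≠ B' := fun he =>
      h (hyp.inj A χ' hAodd hχ' fun y => congrFun (congrArg Subtype.val he) y)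
    rw [classInner_irr_of_ne h, classInner_irr_of_ne hB]

/-- Every constituent of the restriction of an odd-degree character to a normal subgroup has odd
degree. -/
theorem odd_constituent [M.Normal] (χ : IrrCharacter G) (hχ : ¬ 2 ∣ charDegree (χ : G → ℂ))
    (φ : IrrCharacter M) (h : mult (fun m : M => (χ : G → ℂ) m) φ ≠ 0) :
    ¬ 2 ∣ charDegree (φ : M → ℂ) := by
  intro hd
  refine hχ (hd.trans ?_)
  have hcl := clifford_one χ φ h
  rw [← coe_charDegree χ, ← coe_charDegree φ] at hcl
  exact ⟨mult (fun m : M => (χ : G → ℂ) m) φ * (inertia M (φ : M → ℂ)).index,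
    Nat.cast_injective (R := ℂ) (by push_cast; rw [hcl]; ring)⟩

/-- The hypothesis descends to the kernel. -/
theorem descend [M.Normal] (hyp : RestrictHyp H) (l : G →* ℂˣ) (hl : ∀ g, l g = 1 ↔ g ∈ M) {r : ℕ}
    (hlr : ∀ g, l g ^ r = 1) (hr : M.index = r) (hrH : (M.subgroupOf H).index = r) (hodd : ¬ 2 ∣ r) :
    RestrictHyp (H.subgroupOf M) := by
  classical
  haveI : Fact (Nat.Prime 2) := ⟨Nat.prime_two⟩
  set H1 := H.subgroupOf M with hH1
  -- the inner product of restrictions of constituents
  have key : ∀ φ φ' : IrrCharacter M, ¬ 2 ∣ charDegree (φ : M → ℂ) → ¬ 2 ∣ charDegree (φ' : M → ℂ) →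
      classInner (fun x : H1 => (φ : M → ℂ) x) (fun x : H1 => (φ' : M → ℂ) x) =
        if φ = φ' then 1 else 0 := by
    intro φ φ' hφ hφ'
    obtain ⟨χ, hχ, hm⟩ := Apps.exists_not_dvd_over M (hr ▸ hodd) φ hφ
    obtain ⟨χ', hχ', hm'⟩ := Apps.exists_not_dvd_over M (hr ▸ hodd) φ' hφ'
    obtain ⟨s, hs, hes⟩ := exists_eq_sum_mult (isCharacter_restrict (isCharacter_coe χ) M)
    obtain ⟨s', hs', hes'⟩ := exists_eq_sum_mult (isCharacter_restrict (isCharacter_coe χ') M)
    set a : IrrCharacter M → ℕ := fun η => mult (fun m : M => (χ : G → ℂ) m) η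
    set b : IrrCharacter M → ℕ := fun η => mult (fun m : M => (χ' : G → ℂ) m) η
    choose n hn using fun η η' : IrrCharacter M =>
      exists_nat_inner (isCharacter_restrict (isCharacter_coe η) H1)
        (isCharacter_restrict (isCharacter_coe η') H1)
    have hdiag : ∀ η η', (if η = η' then 1 else 0) ≤ n η η' := by
      intro η η'
      split_ifs with he
      · subst he
        rw [Nat.one_le_iff_ne_zero]
        intro h0
        obtain ⟨ξ, hξ⟩ := exists_mult_ne_zero (isCharacter_restrict (isCharacter_coe η) H1)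
          (fun h => map_one_ne_zero η (congrFun h 1))
        obtain ⟨t, ht, het⟩ := exists_eq_sum_mult (isCharacter_restrict (isCharacter_coe η) H1)
        have h1 : n η η = ∑ ξ ∈ t, mult (fun x : H1 => (η : M → ℂ) x) ξ ^ 2 := by
          apply Nat.cast_injective (R := ℂ)
          rw [← hn]
          conv_lhs => arg 1; rw [het]
          rw [classInner_sum_left, Nat.cast_sum]
          refine Finset.sum_congr rfl fun ξ _ => ?_
          rw [classInner_smul_left,
            classInner_irr_left_eq_mult (isCharacter_restrict (isCharacter_coe η) H1), pow_two,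
            Nat.cast_mul]
        rw [h0] at h1
        exact hξ (pow_eq_zero_iff two_ne_zero |>.1
          (Finset.sum_eq_zero_iff.1 h1.symm ξ ((ht ξ).2 hξ)))
      · exact Nat.zero_le _
    have hA : classInner (fun m : M => (χ : G → ℂ) m) (fun m : M => (χ' : G → ℂ) m) =
        ((∑ η ∈ s, ∑ η' ∈ s', a η * b η' * (if η = η' then 1 else 0) : ℕ) : ℂ) := by
      conv_lhs => rw [hes, hes']
      rw [classInner_sum_left, Nat.cast_sum]
      refine Finset.sum_congr rfl fun η _ => ?_
      rw [classInner_smul_left, classInner_sum_right', Finset.mul_sum, Nat.cast_sum]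
      refine Finset.sum_congr rfl fun η' _ => ?_
      rw [classInner_natCast_smul_right, classInner_irr]
      split_ifs <;> simp [a, b]
    have hB : classInner (fun x : H1 => (χ : G → ℂ) ((x : M) : G))
        (fun x : H1 => (χ' : G → ℂ) ((x : M) : G)) =
        ((∑ η ∈ s, ∑ η' ∈ s', a η * b η' * n η η' : ℕ) : ℂ) := by
      have e1 : (fun x : H1 => (χ : G → ℂ) ((x : M) : G)) =
          ∑ η ∈ s, (a η : ℂ) • fun x : H1 => (η : M → ℂ) x := by
        funext x
        have := congrFun hes (x : M)
        simp only [Finset.sum_apply, Pi.smul_apply] at this ⊢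
        exact this
      have e2 : (fun x : H1 => (χ' : G → ℂ) ((x : M) : G)) =
          ∑ η ∈ s', (b η : ℂ) • fun x : H1 => (η : M → ℂ) x := by
        funext x
        have := congrFun hes' (x : M)
        simp only [Finset.sum_apply, Pi.smul_apply] at this ⊢
        exact this
      rw [e1, e2, classInner_sum_left, Nat.cast_sum]
      refine Finset.sum_congr rfl fun η _ => ?_
      rw [classInner_smul_left, classInner_sum_right', Finset.mul_sum, Nat.cast_sum]
      refine Finset.sum_congr rfl fun η' _ => ?_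
      rw [classInner_natCast_smul_right, hn]
      push_cast
      ring
    have heq := inner_eq H M hyp l hl hlr hr hrH χ χ' hχ hχ'
    rw [hA, hB, Nat.cast_inj] at heq
    have hle : ∀ η ∈ s, ∀ η' ∈ s',
        a η * b η' * (if η = η' then 1 else 0) ≤ a η * b η' * n η η' :=
      fun η _ η' _ => Nat.mul_le_mul_left _ (hdiag η η')
    have h1 := (Finset.sum_eq_sum_iff_of_le fun η hη => Finset.sum_le_sum (hle η hη)).1 heq φ
      ((hs φ).2 hm)
    have h2 := (Finset.sum_eq_sum_iff_of_le (hle φ ((hs φ).2 hm))).1 h1 φ' ((hs' φ').2 hm')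
    have h3 := Nat.eq_of_mul_eq_mul_left (Nat.pos_of_ne_zero (Nat.mul_ne_zero hm hm')) h2
    rw [hn, ← h3]
    split_ifs <;> simp
  refine ⟨fun φ hφ => isIrrCharacter_of_classInner_self
    (isCharacter_restrict (isCharacter_coe φ) H1) (by rw [key φ φ hφ hφ, if_pos rfl]),
    fun φ φ' hφ hφ' he => ?_⟩
  by_contra hne
  have h1 := key φ φ hφ hφ
  rw [if_pos rfl] at h1
  have h2 := key φ φ' hφ hφ'
  rw [if_neg hne, ← show (fun x : H1 => (φ : M → ℂ) x) = fun x : H1 => (φ' : M → ℂ) x from funext he,
    h1] at h2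
  exact one_ne_zero h2

end CfsgLib.Chars.OddNormalizer68
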